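import Mathlib
import Cfsg.Prelude.Def_Transfer
import Cfsg.Agent.Lib.ThreeTrans.ExtraTypes
import Cfsg.Agent.Lib.KnownSimple.TwoTrans

/-! Abstract facts for the centraliser of an involution in the third Janko group. -/

set_option autoImplicit false

namespace Cfsg.Agent.Lib.ThreeTrans.ES2

section te

/-- The minus type. -/
abbrev sM : Fin 2 → Bool := ![false, true]

set_option synthInstance.maxSize 2000 in
theorem sing_pair : ∀ v0 v1 w0 w1 : P, c false v0 v0 + c true v1 v1 = 0 → c false w0 w0 + c true w1 w1 = 0 →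
    c false v0 w0 + c true v1 w1 = c false w0 v0 + c true w1 v1 →
    (v0 = 0 ∧ v1 = 0) ∨ (w0 = 0 ∧ w1 = 0) ∨ (v0 = w0 ∧ v1 = w1) := by decide +kernel

theorem beta_sM (v w : Fin 2 → P) : beta sM v w = c false (v 0) (w 0) + c true (v 1) (w 1) := by
  simp [beta, Fin.sum_univ_two]

theorem ea_bound (E : Subgroup (TE sM)) (hc : ∀ x ∈ E, ∀ y ∈ E, x * y = y * x) (h2 : ∀ x ∈ E, x ^ 2 = 1) :
    Nat.card E ≤ 4 := by
  classical
  have hq : ∀ x ∈ E, beta sM x.v x.v = 0 := by
    intro x hx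
    have h := congrArg TE.a (h2 x hx)
    rw [pow_two] at h
    have h' : x.a + x.a + beta sM x.v x.v = 0 := h
    rwa [z2_add_self, zero_add] at h'
  have hb : ∀ x ∈ E, ∀ y ∈ E, beta sM x.v y.v = beta sM y.v x.v := by
    intro x hx y hy
    have h := congrArg TE.a (hc x hx y hy)
    have h' : x.a + y.a + beta sM x.v y.v = y.a + x.a + beta sM y.v x.v := h
    rw [add_comm x.a y.a] at h'
    exact add_left_cancel h'
  have hkey : ∀ x ∈ E, ∀ y ∈ E, x.v = 0 ∨ y.v = 0 ∨ x.v = y.v := by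
    intro x hx y hy
    have h1 := hq x hx
    have h3 := hq y hy
    have h4 := hb x hx y hy
    rw [beta_sM] at h1 h3 h4
    rw [beta_sM] at h4
    have hv : ∀ u w : Fin 2 → P, u 0 = w 0 → u 1 = w 1 → u = w := by
      intro u w h0 h1
      funext i
      fin_cases i
      · exact h0
      · exact h1
    rcases sing_pair _ _ _ _ h1 h3 h4 with ⟨e0, e1⟩ | ⟨e0, e1⟩ | ⟨e0, e1⟩
    · exact Or.inl (hv _ _ e0 e1)
    · exact Or.inr (Or.inl (hv _ _ e0 e1))
    · exact Or.inr (Or.inr (hv _ _ e0 e1))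
  by_cases hE : ∀ x ∈ E, x.v = 0
  · let f : E → ZMod 2 × Bool := fun x => (x.1.a, false)
    have hf : Function.Injective f := by
      intro x y e
      apply Subtype.ext
      apply TE.ext
      · rw [hE _ x.2, hE _ y.2]
      · exact congrArg Prod.fst e
    have h := Nat.card_le_card_of_injective f hf
    have h5 : Nat.card (ZMod 2 × Bool) = 4 := by
      rw [Nat.card_prod, Nat.card_zmod, Nat.card_eq_fintype_card, Fintype.card_bool]
    omega
  · push Not at hE
    obtain ⟨w, hw, hw0⟩ := hE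
    let f : E → ZMod 2 × Bool := fun x => (x.1.a, decide (x.1.v = 0))
    have hf : Function.Injective f := by
      intro x y e
      apply Subtype.ext
      apply TE.ext
      · have e2 : decide (x.1.v = 0) = decide (y.1.v = 0) := congrArg Prod.snd e
        rcases hkey x.1 x.2 w hw with h | h | h
        · have : y.1.v = 0 := by simpa [h] using e2
          rw [h, this]
        · exact absurd h hw0
        · rcases hkey y.1 y.2 w hw with h' | h' | h'
          · have hx0 : x.1.v = 0 := by simpa [h'] using e2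
            rw [hx0, h']
          · exact absurd h' hw0
          · rw [h, h']
      · exact congrArg Prod.fst e
    have h := Nat.card_le_card_of_injective f hf
    have h5 : Nat.card (ZMod 2 × Bool) = 4 := by
      rw [Nat.card_prod, Nat.card_zmod, Nat.card_eq_fintype_card, Fintype.card_bool]
    omega

/-- A bit. -/
def bitZ (i k : ℕ) : ZMod 2 := if (i / 2 ^ k) % 2 = 1 then 1 else 0

/-- The elements of the model by their codes. -/
def bQ (i : ℕ) : TE sM := ⟨![(bitZ i 0, bitZ i 1), (bitZ i 2, bitZ i 3)], bitZ i 4⟩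

instance decTE : DecidableEq (TE sM) := fun x y =>
  decidable_of_iff (x.v = y.v ∧ x.a = y.a) ⟨fun h => TE.ext h.1 h.2, fun h => by rw [h]; exact ⟨rfl, rfl⟩⟩


/-- The first generator of the alternating group. -/
def xA5 : ↥(alternatingGroup (Fin 5)) :=
  ⟨Equiv.swap 0 1 * Equiv.swap 1 2 * Equiv.swap 2 3 * Equiv.swap 3 4, Equiv.Perm.mem_alternatingGroup.mpr (by decide)⟩

/-- The second generator of the alternating group. -/
def yA5 : ↥(alternatingGroup (Fin 5)) :=
  ⟨Equiv.swap 0 1 * Equiv.swap 2 3, Equiv.Perm.mem_alternatingGroup.mpr (by decide)⟩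

/-- The generators of the alternating group. -/
def rhoA (a : ℕ) : ↥(alternatingGroup (Fin 5)) := if a = 0 then xA5 else yA5

end te

end Cfsg.Agent.Lib.ThreeTrans.ES2

namespace Cfsg.Agent.Lib.KnownSimple.J3Lab.Cn

open Cfsg.Agent.Lib.ThreeTrans.ES2

section table

variable {Y T : Type*} [Group Y] [Group T]

/-- A homomorphism from a list subgroup given by a table. -/
theorem table_hom (ℓ : ℕ → Y) (m k : ℕ) (gens : ℕ → Y) (τ : ℕ → ℕ → ℕ) (b ρ : ℕ → T)
    (h0 : ℓ 0 = 1) (hm : 0 < m) (hb0 : b 0 = 1)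
    (hmem : ∀ r ∈ Subgroup.closure (gens '' {a | a < k}), ∃ i < m, r = ℓ i)
    (hτ : ∀ a < k, ∀ i < m, τ a i < m ∧ gens a * ℓ i = ℓ (τ a i))
    (hinj : ∀ i < m, ∀ j < m, ℓ i = ℓ j → i = j)
    (hb : ∀ a < k, ∀ i < m, b (τ a i) = ρ a * b i) :
    ∃ f : ↥(Subgroup.closure (gens '' {a | a < k})) →* T,
      ∀ (i : ℕ) (_ : i < m) (x : ↥(Subgroup.closure (gens '' {a | a < k}))), x.1 = ℓ i → f x = b i := by
  classical
  set L := Subgroup.closure (gens '' {a | a < k}) with hL
  have key : ∀ x ∈ L, ∃ c : T, ∀ i < m, ∃ j < m, x * ℓ i = ℓ j ∧ b j = c * b i := by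
    intro x hx
    induction hx using Subgroup.closure_induction with
    | mem x hx =>
      obtain ⟨a, ha, rfl⟩ := hx
      exact ⟨ρ a, fun i hi => ⟨τ a i, (hτ a ha i hi).1, (hτ a ha i hi).2, hb a ha i hi⟩⟩
    | one => exact ⟨1, fun i hi => ⟨i, hi, by simp, by simp⟩⟩
    | mul x y _ _ hx hy =>
      obtain ⟨cx, hcx⟩ := hx
      obtain ⟨cy, hcy⟩ := hy
      refine ⟨cx * cy, fun i hi => ?_⟩
      obtain ⟨j, hj, e1, e2⟩ := hcy i hi
      obtain ⟨j', hj', e3, e4⟩ := hcx j hj
      refine ⟨j', hj', ?_, ?_⟩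
      · rw [mul_assoc, e1, e3]
      · rw [e4, e2, mul_assoc]
    | inv x _ hx =>
      obtain ⟨c, hc⟩ := hx
      refine ⟨c⁻¹, ?_⟩
      choose! p hp1 hp2 hp3 using hc
      let pf : Fin m → Fin m := fun i => ⟨p i.1, hp1 i.1 i.2⟩
      have hpf : Function.Injective pf := by
        intro i j e
        have e1 : p i.1 = p j.1 := congrArg Fin.val e
        have e2 := hp2 i.1 i.2
        have e3 := hp2 j.1 j.2
        rw [e1, ← e3] at e2
        exact Fin.ext (hinj _ i.2 _ j.2 (mul_left_cancel e2))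
      have hps := Finite.injective_iff_surjective.mp hpf
      intro i hi
      obtain ⟨j, hj⟩ := hps ⟨i, hi⟩
      have e : p j.1 = i := congrArg Fin.val hj
      refine ⟨j.1, j.2, ?_, ?_⟩
      · rw [inv_mul_eq_iff_eq_mul, hp2 j.1 j.2, e]
      · rw [eq_inv_mul_iff_mul_eq, ← hp3 j.1 j.2, e]
  have hidx : ∀ x : ↥L, ∃ i < m, x.1 = ℓ i := fun x => hmem x.1 x.2
  choose idx hidx1 hidx2 using hidx
  have key2 : ∀ x y : ↥L, b (idx (x * y)) = b (idx x) * b (idx y) := by
    intro x y
    obtain ⟨c, hc⟩ := key x.1 x.2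
    obtain ⟨j0, hj0, e1, e2⟩ := hc 0 hm
    rw [h0, mul_one] at e1
    rw [hb0, mul_one] at e2
    have h1 : idx x = j0 := hinj _ (hidx1 x) _ hj0 ((hidx2 x).symm.trans e1)
    obtain ⟨j1, hj1, e3, e4⟩ := hc (idx y) (hidx1 y)
    have h2 : idx (x * y) = j1 := by
      apply hinj _ (hidx1 _) _ hj1
      rw [← hidx2 (x * y), ← e3, ← hidx2 y]
      rfl
    rw [h2, e4, h1, e2]
  refine ⟨MonoidHom.mk' (fun x => b (idx x)) key2, ?_⟩
  intro i hi x hx
  have h1 : idx x = i := hinj _ (hidx1 x) _ hi ((hidx2 x).symm.trans hx)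
  show b (idx x) = b i
  rw [h1]

/-- A list subgroup with a table is isomorphic to a model. -/
theorem list_equiv {Z : Type*} [Group Z] [Finite T] (π : Y →* Z) (ℓ : ℕ → Y) (m k : ℕ)
    (gens : ℕ → Y) (τ : ℕ → ℕ → ℕ) (pr gn : ℕ → ℕ) (b ρ : ℕ → T)
    (h0 : ℓ 0 = 1) (hm : 0 < m) (hb0 : b 0 = 1)
    (hτ : ∀ a < k, ∀ i < m, τ a i < m ∧ gens a * ℓ i = ℓ (τ a i))
    (hinj : ∀ i < m, ∀ j < m, ℓ i = ℓ j → i = j)
    (htree : ∀ i, 0 < i → i < m → pr i < i ∧ gn i < k ∧ τ (gn i) (pr i) = i)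
    (hb : ∀ a < k, ∀ i < m, b (τ a i) = ρ a * b i)
    (hker : ∀ i < m, b i = 1 → i = 0) (hcard : Nat.card T = m)
    (hπ : ∀ i < m, π (ℓ i) = 1 → i = 0) :
    Nonempty (↥((Subgroup.closure (gens '' {a | a < k})).map π) ≃* T) := by
  obtain ⟨hmem, hc⟩ := TwoTrans.list_subgroup ℓ m k gens τ pr gn hm h0 hτ hinj htree
  obtain ⟨f, hf⟩ := table_hom ℓ m k gens τ b ρ h0 hm hb0 hmem hτ hinj hb
  have hfinj : Function.Injective f := by
    rw [injective_iff_map_eq_one]
    intro x hx
    obtain ⟨i, hi, e⟩ := hmem x.1 x.2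
    have h1 := hf i hi x e
    rw [hx] at h1
    have h2 := hker i hi h1.symm
    subst h2
    apply Subtype.ext
    rw [e, h0]
    rfl
  have hfbij : Function.Bijective f :=
    (Nat.bijective_iff_injective_and_card f).mpr ⟨hfinj, by rw [hc, hcard]⟩
  let g := π.subgroupMap (Subgroup.closure (gens '' {a | a < k}))
  have hginj : Function.Injective g := by
    rw [injective_iff_map_eq_one]
    intro x hx
    have h1 : π x.1 = 1 := congrArg Subtype.val hx
    obtain ⟨i, hi, e⟩ := hmem x.1 x.2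
    rw [e] at h1
    have h2 := hπ i hi h1
    subst h2
    apply Subtype.ext
    rw [e, h0]
    rfl
  have hgbij : Function.Bijective g := ⟨hginj, π.subgroupMap_surjective _⟩
  exact ⟨(MulEquiv.ofBijective g hgbij).symm.trans (MulEquiv.ofBijective f hfbij)⟩

end table

section transfer

variable {A B : Type*} [Group A] [Group B]

theorem extraspecial_of_equiv (e : A ≃* B) (p : ℕ) (hB : Cfsg.IsExtraspecial p B) : Cfsg.IsExtraspecial p A := by
  obtain ⟨⟨hp, hf, hc⟩, hcard⟩ := hB
  have hce : (Subgroup.center A).map e.toMonoidHom = Subgroup.center B := by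
    ext y
    simp only [Subgroup.mem_map, Subgroup.mem_center_iff, MulEquiv.coe_toMonoidHom]
    constructor
    · rintro ⟨x, hx, rfl⟩ g
      have := hx (e.symm g)
      apply e.symm.injective
      simpa using this
    · intro hy
      refine ⟨e.symm y, fun g => ?_, by simp⟩
      apply e.injective
      simpa using hy (e g)
  have hinj : Function.Injective (Subgroup.map e.toMonoidHom) :=
    Subgroup.map_injective e.injective
  refine ⟨⟨?_, ?_, ?_⟩, ?_⟩
  · exact hp.of_injective e.toMonoidHom e.injective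
  · apply hinj
    rw [hce, ← hf]
    apply le_antisymm
    · exact Subgroup.map_le_iff_le_comap.mpr (frattini_le_comap_frattini_of_surjective e.surjective)
    · intro y hy
      have h1 := frattini_le_comap_frattini_of_surjective (φ := e.symm.toMonoidHom) e.symm.surjective hy
      exact ⟨e.symm y, h1, by simp⟩
  · apply hinj
    rw [hce, ← hc, _root_.commutator_def, Subgroup.map_commutator, Subgroup.map_top_of_surjective _ e.surjective]
    rfl
  · rw [← hcard, ← hce]
    exact Nat.card_congr (e.subgroupMap (Subgroup.center A)).toEquiv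

end transfer


section main

variable {J : Type*} [Group J] [Finite J]

/-- The structure of the centraliser from its pieces. -/
theorem centralizer_struct (t : J) (Q0 H0 : Subgroup J) (eQ : ↥Q0 ≃* TE sM)
    (eH : ↥H0 ≃* ↥(alternatingGroup (Fin 5)))
    (hQc : ∀ x ∈ Q0, x * t = t * x) (hHc : ∀ x ∈ H0, x * t = t * x)
    (hn : ∀ g ∈ H0, ∀ x ∈ Q0, g * x * g⁻¹ ∈ Q0)
    (hC : Nat.card ↥(Subgroup.centralizer ({t} : Set J)) ≤ 1920) :
    ∃ (Q : Subgroup ↥(Subgroup.centralizer ({t} : Set J))) (_ : Q.Normal), Cfsg.IsExtraspecial 2 Q ∧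
      Nat.card Q = 32 ∧ (∀ E : Subgroup Q, Cfsg.IsElementaryAbelian 2 E → Nat.card E ≤ 2 ^ 2) ∧
      (∃ H : Subgroup ↥(Subgroup.centralizer ({t} : Set J)), Q.IsComplement' H) ∧
      Nonempty (↥(Subgroup.centralizer ({t} : Set J)) ⧸ Q ≃* ↥(alternatingGroup (Fin 5))) := by
  classical
  set C := Subgroup.centralizer ({t} : Set J) with hCdef
  have hQle : Q0 ≤ C := by
    intro x hx
    rw [hCdef, Subgroup.mem_centralizer_iff]
    rintro _ rfl
    exact (hQc x hx).symm
  have hHle : H0 ≤ C := by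
    intro x hx
    rw [hCdef, Subgroup.mem_centralizer_iff]
    rintro _ rfl
    exact (hHc x hx).symm
  set Q : Subgroup ↥C := Q0.subgroupOf C with hQ
  set H : Subgroup ↥C := H0.subgroupOf C with hH
  let eQ' : ↥Q ≃* ↥Q0 := Subgroup.subgroupOfEquivOfLe hQle
  let eH' : ↥H ≃* ↥H0 := Subgroup.subgroupOfEquivOfLe hHle
  have hQ32 : Nat.card Q = 32 := by
    rw [Nat.card_congr (eQ'.trans eQ).toEquiv, card_TE]
    norm_num
  have hcA : Nat.card ↥(alternatingGroup (Fin 5)) = 60 := by
    rw [Nat.card_eq_fintype_card]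
    decide
  have hH60 : Nat.card H = 60 := by
    rw [Nat.card_congr (eH'.trans eH).toEquiv, hcA]
  -- the intersection
  have hsimp : IsSimpleGroup ↥H0 := eH.isSimpleGroup
  have hnorm : (Q0.subgroupOf H0).Normal := by
    constructor
    intro x hx g
    rw [Subgroup.mem_subgroupOf] at hx ⊢
    exact hn g.1 g.2 x.1 hx
  have hdisj0 : ∀ x, x ∈ Q0 → x ∈ H0 → x = 1 := by
    rcases hnorm.eq_bot_or_eq_top with h | h
    · intro x hx hy
      have h1 : (⟨x, hy⟩ : ↥H0) ∈ Q0.subgroupOf H0 := by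
        rw [Subgroup.mem_subgroupOf]
        exact hx
      rw [h, Subgroup.mem_bot] at h1
      exact congrArg Subtype.val h1
    · exfalso
      have hle : H0 ≤ Q0 := by
        intro x hx
        have h1 : (⟨x, hx⟩ : ↥H0) ∈ Q0.subgroupOf H0 := by
          rw [h]
          exact Subgroup.mem_top _
        rwa [Subgroup.mem_subgroupOf] at h1
      have h1 := Nat.card_le_card_of_injective _ (Subgroup.inclusion_injective hle)
      rw [Nat.card_congr eH.toEquiv, hcA, Nat.card_congr eQ.toEquiv, card_TE] at h1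
      norm_num at h1
  have hdisj : Disjoint Q H := by
    rw [Subgroup.disjoint_def]
    intro x hx hy
    rw [hQ, Subgroup.mem_subgroupOf] at hx
    rw [hH, Subgroup.mem_subgroupOf] at hy
    exact Subtype.ext (hdisj0 _ hx hy)
  have hinj := Subgroup.mul_injective_of_disjoint hdisj
  have hcardle := Nat.card_le_card_of_injective _ hinj
  rw [Nat.card_prod, hQ32, hH60] at hcardle
  have hcardC : Nat.card ↥C = 1920 := by omega
  have hcomp : Q.IsComplement' H :=
    Subgroup.isComplement'_of_card_mul_and_disjoint (by rw [hQ32, hH60, hcardC]) hdisj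
  have hsurj : ∀ c : ↥C, ∃ q ∈ Q, ∃ h ∈ H, c = q * h := by
    intro c
    obtain ⟨⟨q, h⟩, e⟩ := hcomp.2 c
    exact ⟨q.1, q.2, h.1, h.2, e.symm⟩
  have hQn : Q.Normal := by
    constructor
    intro n hn' c
    obtain ⟨q, hq, h, hh, rfl⟩ := hsurj c
    rw [hQ, Subgroup.mem_subgroupOf] at hq hn' ⊢
    rw [hH, Subgroup.mem_subgroupOf] at hh
    have h1 : ((q * h * n * (q * h)⁻¹ : ↥C) : J) = q.1 * (h.1 * n.1 * h.1⁻¹) * q.1⁻¹ := by
      simp only [Subgroup.coe_mul, Subgroup.coe_inv, mul_inv_rev]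
      group
    rw [h1]
    exact Q0.mul_mem (Q0.mul_mem hq (hn _ hh _ hn')) (Q0.inv_mem hq)
  refine ⟨Q, hQn, ?_, hQ32, ?_, ⟨H, hcomp⟩, ?_⟩
  · exact extraspecial_of_equiv (eQ'.trans eQ) 2 (isExtraspecial_TE sM (by norm_num))
  · intro E hE
    obtain ⟨hEc, hE2⟩ := hE
    let φ : ↥Q ≃* TE sM := eQ'.trans eQ
    have h1 : Nat.card E = Nat.card (E.map φ.toMonoidHom) := Nat.card_congr (φ.subgroupMap E).toEquiv
    rw [h1]
    refine ea_bound _ ?_ ?_
    · rintro _ ⟨x, hx, rfl⟩ _ ⟨y, hy, rfl⟩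
      have h2 := hEc.is_comm.comm (⟨x, hx⟩ : ↥E) ⟨y, hy⟩
      have h3 : x * y = y * x := congrArg Subtype.val h2
      rw [← map_mul, ← map_mul, h3]
    · rintro _ ⟨x, hx, rfl⟩
      rw [← map_pow, hE2 x hx, map_one]
  · let f : ↥H →* ↥C ⧸ Q := (QuotientGroup.mk' Q).comp H.subtype
    have hf : Function.Bijective f := by
      constructor
      · rw [injective_iff_map_eq_one]
        intro x hx
        have h1 : (x : ↥C) ∈ Q := (QuotientGroup.eq_one_iff _).mp hx
        exact Subtype.ext ((Subgroup.disjoint_def.mp hdisj) h1 x.2)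
      · intro y
        obtain ⟨c, rfl⟩ := QuotientGroup.mk'_surjective Q y
        obtain ⟨q, hq, h, hh, rfl⟩ := hsurj c
        refine ⟨⟨h, hh⟩, ?_⟩
        show QuotientGroup.mk' Q h = QuotientGroup.mk' Q (q * h)
        have hq1 : QuotientGroup.mk' Q q = 1 := (QuotientGroup.eq_one_iff q).mpr hq
        rw [map_mul, hq1, one_mul]
    exact ⟨(MulEquiv.ofBijective f hf).symm.trans (eH'.trans eH)⟩

end main

end Cfsg.Agent.Lib.KnownSimple.J3Lab.Cn
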