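import Cfsg.Agent.Lib.KnownSimple.J3Lab.CentD

/-! The centraliser of an involution in the third Janko group. -/

set_option autoImplicit false
set_option maxRecDepth 100000

namespace Cfsg.Agent.Lib.KnownSimple.J3Lab.Ot

open Cfsg.Agent.Lib.KnownSimple.Lab Cfsg.Agent.Lib.KnownSimple.LabField
open Cfsg.Agent.Lib.KnownSimple.LabVec Cfsg.Agent.Lib.KnownSimple.LabChev Cfsg.Agent.Lib.KnownSimple.LabPack Cfsg.Spor
open Cfsg.Agent.Lib.KnownSimple.LabLevels Cfsg.Agent.Lib.KnownSimple.LabJ3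
open Cfsg.Agent.Lib.KnownSimple.J3Lab.Cn Cfsg.Agent.Lib.ThreeTrans.ES2
open scoped Matrix Pointwise
open Rp IsoL

section main

variable {F : Type*} [Field F] {ω : F} {S : R4 F ω} {γ : ℕ → ↥(threeJ3 F ω)}
  (hX : ∀ a < 2, chM (γ a) = toMS S.R.φ add4 9 (XA a))
  (hI : ∀ a < 2, γ (a + 2) = (γ a)⁻¹)
  (hVA : ∀ i < 69768, U 4 i = walk V wa i)
  (hVB : ∀ i < 69768, U 5 i < 69768 ∧ U 4 (U 5 i) = i)
  (hS : ∀ k < 26163, hSF k = true)

include hX hI hVA hVB in
/-- The list subgroups in the simple group. -/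
theorem list_concrete {T : Type*} [Group T] [Finite T] (m k q : ℕ) (hq : q < 69768) (hm : 0 < m) (hk : 0 < k)
    (gL LL tauL : List (List ℕ)) (prL gnL sgL : List ℕ) (b ρ : ℕ → T)
    (hch : ∀ a < k, ∀ i < m, (tauL.getD a []).getD i 0 < m ∧ (∀ l ∈ gL.getD a [], l < 4) ∧
      (∀ l ∈ LL.getD i [], l < 4) ∧
      chkL bsL (gL.getD a [] ++ (LL.getD i [] ++ invW (LL.getD ((tauL.getD a []).getD i 0) []))) = true)
    (h0 : LL.getD 0 [] = [])
    (hsig : ∀ i < m, walk V (LL.getD i []) q = sgL.getD i 0)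
    (hsig2 : ∀ i < m, ∀ j < m, sgL.getD i 0 = sgL.getD j 0 → i = j)
    (htree : ∀ i < m, 0 < i → prL.getD i 0 < i ∧ gnL.getD i 0 < k ∧
      (tauL.getD (gnL.getD i 0) []).getD (prL.getD i 0) 0 = i)
    (hw : ∀ i < m, 0 < i → 3 ≤ walk U (LL.getD i []) 0)
    (hb0 : b 0 = 1)
    (hb : ∀ a < k, ∀ i < m, b ((tauL.getD a []).getD i 0) = ρ a * b i)
    (hker : ∀ i < m, b i = 1 → i = 0) (hcard : Nat.card T = m) :
    Nonempty (↥((Subgroup.closure ((fun a => wval γ (gL.getD a [])) '' {a | a < k})).map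
      (piJ (F := F) (ω := ω))) ≃* T) := by
  have hL : ∀ i < m, ∀ l ∈ LL.getD i [], l < 4 := fun i hi => (hch 0 hk i hi).2.2.1
  refine list_equiv piJ (fun i => wval γ (LL.getD i [])) m k (fun a => wval γ (gL.getD a []))
    (fun a i => (tauL.getD a []).getD i 0) (fun i => prL.getD i 0) (fun i => gnL.getD i 0) b ρ ?_ hm hb0
    ?_ ?_ ?_ hb hker hcard ?_
  · show wval γ (LL.getD 0 []) = 1
    rw [h0]
    rfl
  · intro a ha i hi
    obtain ⟨h1, h2, h3, h4⟩ := hch a ha i hi
    refine ⟨h1, ?_⟩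
    have hl : ∀ b ∈ gL.getD a [] ++ (LL.getD i [] ++ invW (LL.getD ((tauL.getD a []).getD i 0) [])), b < 4 := by
      intro b hb
      simp only [List.mem_append] at hb
      rcases hb with hb | hb | hb
      · exact h2 b hb
      · exact h3 b hb
      · exact invW_lt _ (hL _ h1) b hb
    have h5 := heqE hX hI _ hl h4
    rw [wval_append, wval_append, wval_invW4 hI _ (hL _ h1), ← mul_assoc] at h5
    exact mul_inv_eq_one.mp h5
  · intro i hi j hj e
    obtain ⟨h1, h2⟩ := word_pt hX hI _ (hL i hi) q hq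
    obtain ⟨h3, h4⟩ := word_pt hX hI _ (hL j hj) q hq
    have e' : wval γ (LL.getD i []) = wval γ (LL.getD j []) := e
    rw [e', h4] at h2
    have h5 := hP_inj hX hI _ h3 _ h1 h2
    apply hsig2 i hi j hj
    rw [← hsig i hi, ← hsig j hj, h5]
  · intro i h1 h2
    exact htree i h2 h1
  · intro i hi h
    by_contra hne
    have h1 := hw i hi (Nat.pos_of_ne_zero hne)
    have hw6 : ∀ a ∈ LL.getD i [], a < 6 := fun a ha => by
      have := hL i hi a ha
      omega
    have h2 : piJ (wval (gE γ) (LL.getD i [])) = 1 := by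
      rw [wval_gE _ (hL i hi)]
      exact h
    have h3 := walk_small hX hI hVA hVB _ hw6 h2
    omega

include hX hI in
/-- Subgroups commuting with the involution. -/
theorem comm_of_chk (k : ℕ) (gL : List (List ℕ)) (h4 : ∀ a < k, ∀ l ∈ gL.getD a [], l < 4)
    (hch : ∀ a < k, chkL bsL (gL.getD a [] ++ (wt ++ (invW (gL.getD a []) ++ invW wt))) = true) :
    ∀ x ∈ (Subgroup.closure ((fun a => wval γ (gL.getD a [])) '' {a | a < k})).map (piJ (F := F) (ω := ω)),
      x * piJ (tE γ) = piJ (tE γ) * x := by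
  have hle : Subgroup.closure ((fun a => wval γ (gL.getD a [])) '' {a | a < k}) ≤
      Subgroup.centralizer ({tE γ} : Set ↥(threeJ3 F ω)) := by
    rw [Subgroup.closure_le]
    rintro _ ⟨a, ha, rfl⟩
    have ha' : a < k := ha
    have hl : ∀ b ∈ gL.getD a [] ++ (wt ++ (invW (gL.getD a []) ++ invW wt)), b < 4 := by
      intro b hb
      simp only [List.mem_append] at hb
      rcases hb with hb | hb | hb | hb
      · exact h4 a ha' b hb
      · exact wt4 b hb
      · exact invW_lt _ (h4 a ha') b hb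
      · exact invW_lt _ wt4 b hb
    have h5 := heqE hX hI _ hl (hch a ha')
    rw [wval_append, wval_append, wval_append, wval_invW4 hI _ (h4 a ha'), wval_invW4 hI _ wt4] at h5
    rw [SetLike.mem_coe, Subgroup.mem_centralizer_iff]
    rintro _ rfl
    have h6 : wval γ (gL.getD a []) * wval γ wt * (wval γ (gL.getD a []))⁻¹ = wval γ wt := by
      have h7 := mul_inv_eq_one.mp (by simpa only [mul_assoc] using h5 :
        wval γ (gL.getD a []) * wval γ wt * (wval γ (gL.getD a []))⁻¹ * (wval γ wt)⁻¹ = 1)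
      exact h7
    have h8 : wval γ (gL.getD a []) * wval γ wt = wval γ wt * wval γ (gL.getD a []) := by
      rw [mul_inv_eq_iff_eq_mul] at h6
      exact h6
    exact h8.symm
  rintro _ ⟨y, hy, rfl⟩
  have h2 : tE γ * y = y * tE γ := (Subgroup.mem_centralizer_iff.mp (hle hy)) _ rfl
  rw [← map_mul, ← map_mul, h2]

/-- Membership of the list in the subgroup generated. -/
theorem list_mem {Y : Type*} [Group Y] (ℓ : ℕ → Y) (m k : ℕ) (gens : ℕ → Y) (τ : ℕ → ℕ → ℕ) (pr gn : ℕ → ℕ)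
    (h0 : ℓ 0 = 1) (hτ : ∀ a < k, ∀ i < m, gens a * ℓ i = ℓ (τ a i))
    (htree : ∀ i, i < m → 0 < i → pr i < i ∧ gn i < k ∧ τ (gn i) (pr i) = i) :
    ∀ i, i < m → ℓ i ∈ Subgroup.closure (gens '' {a | a < k}) := by
  intro i
  induction i using Nat.strong_induction_on with
  | _ i ih =>
    intro hi
    rcases Nat.eq_zero_or_pos i with rfl | h
    · rw [h0]
      exact one_mem _
    · obtain ⟨h1, h2, h3⟩ := htree i hi h
      have h4 := hτ (gn i) h2 (pr i) (by omega)
      rw [h3] at h4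
      rw [← h4]
      exact mul_mem (Subgroup.subset_closure ⟨_, h2, rfl⟩) (ih _ h1 (by omega))

include hX hI in
/-- The generators of the complement normalise the normal subgroup. -/
theorem norm_of_chk [Finite ↥(threeJ3 F ω)] :
    ∀ g ∈ (Subgroup.closure ((fun a => wval γ (gAL.getD a [])) '' {a | a < 2})).map (piJ (F := F) (ω := ω)),
    ∀ x ∈ (Subgroup.closure ((fun a => wval γ (gQL.getD a [])) '' {a | a < 5})).map (piJ (F := F) (ω := ω)),
      g * x * g⁻¹ ∈ (Subgroup.closure ((fun a => wval γ (gQL.getD a [])) '' {a | a < 5})).map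
        (piJ (F := F) (ω := ω)) := by
  classical
  set Qt := Subgroup.closure ((fun a => wval γ (gQL.getD a [])) '' {a | a < 5}) with hQt
  have hG4 : ∀ a < 5, ∀ l ∈ gQL.getD a [], l < 4 := fun a ha => (c_Qtau a ha 0 (by norm_num)).2.1
  have hL4 : ∀ i < 32, ∀ l ∈ LQL.getD i [], l < 4 := fun i hi => (c_Qtau 0 (by norm_num) i hi).2.2.1
  have hA4 : ∀ a < 2, ∀ l ∈ gAL.getD a [], l < 4 := fun a ha => (c_Atau a ha 0 (by norm_num)).2.1
  have hLm : ∀ i, i < 32 → wval γ (LQL.getD i []) ∈ Qt := by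
    apply list_mem (fun i => wval γ (LQL.getD i [])) 32 5 (fun a => wval γ (gQL.getD a []))
      (fun a i => (tauQL.getD a []).getD i 0) (fun i => prQL.getD i 0) (fun i => gnQL.getD i 0)
    · show wval γ (LQL.getD 0 []) = 1
      rw [c_Q0]
      rfl
    · intro a ha i hi
      obtain ⟨h1, h2, h3, h4⟩ := c_Qtau a ha i hi
      have hl : ∀ b ∈ gQL.getD a [] ++ (LQL.getD i [] ++ invW (LQL.getD ((tauQL.getD a []).getD i 0) [])), b < 4 := by
        intro b hb
        simp only [List.mem_append] at hb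
        rcases hb with hb | hb | hb
        · exact h2 b hb
        · exact h3 b hb
        · exact invW_lt _ (hL4 _ h1) b hb
      have h5 := heqE hX hI _ hl h4
      rw [wval_append, wval_append, wval_invW4 hI _ (hL4 _ h1), ← mul_assoc] at h5
      exact mul_inv_eq_one.mp h5
    · exact c_Qtree
  have hgen : Subgroup.closure ((fun a => wval γ (gAL.getD a [])) '' {a | a < 2}) ≤ Subgroup.normalizer Qt := by
    rw [Subgroup.closure_le]
    rintro _ ⟨a, ha, rfl⟩
    have ha' : a < 2 := ha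
    apply Subgroup.mem_normalizer_fintype
    intro x hx
    have hle : Qt ≤ Qt.comap (MulAut.conj (wval γ (gAL.getD a []))).toMonoidHom := by
      rw [hQt, Subgroup.closure_le]
      rintro _ ⟨b, hb, rfl⟩
      have hb' : b < 5 := hb
      obtain ⟨h1, h2⟩ := c_nu a ha' b hb'
      have hl : ∀ c ∈ gAL.getD a [] ++ (gQL.getD b [] ++ (invW (gAL.getD a []) ++ invW (LQL.getD ((nuL.getD a []).getD b 0) []))), c < 4 := by
        intro c hc
        simp only [List.mem_append] at hc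
        rcases hc with hc | hc | hc | hc
        · exact hA4 a ha' c hc
        · exact hG4 b hb' c hc
        · exact invW_lt _ (hA4 a ha') c hc
        · exact invW_lt _ (hL4 _ h1) c hc
      have h5 := heqE hX hI _ hl h2
      rw [wval_append, wval_append, wval_append, wval_invW4 hI _ (hA4 a ha'), wval_invW4 hI _ (hL4 _ h1)] at h5
      have h6 : wval γ (gAL.getD a []) * wval γ (gQL.getD b []) * (wval γ (gAL.getD a []))⁻¹ =
          wval γ (LQL.getD ((nuL.getD a []).getD b 0) []) := by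
        apply mul_inv_eq_one.mp
        simpa only [mul_assoc] using h5
      show _ ∈ Subgroup.comap _ _
      rw [Subgroup.mem_comap]
      show wval γ (gAL.getD a []) * wval γ (gQL.getD b []) * (wval γ (gAL.getD a []))⁻¹ ∈ _
      rw [h6]
      exact hLm _ h1
    exact hle hx
  rintro _ ⟨g, hg, rfl⟩ _ ⟨x, hx, rfl⟩
  refine ⟨g * x * g⁻¹, ?_, by rw [map_mul, map_mul, map_inv]⟩
  exact (Subgroup.mem_normalizer_iff.mp (hgen hg) x).mp hx

theorem eE_sq (htt : tE γ * tE γ = 1) (i j : ℕ) : eE γ i j * eE γ i j = 1 := by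
  have h1 : rE γ j * rE γ j = 1 := by
    simp only [rE]
    have : wval γ (repW j) * tE γ * (wval γ (repW j))⁻¹ * (wval γ (repW j) * tE γ * (wval γ (repW j))⁻¹) =
        wval γ (repW j) * (tE γ * tE γ) * (wval γ (repW j))⁻¹ := by group
    rw [this, htt]
    group
  simp only [eE]
  have : aE γ ^ i * rE γ j * (aE γ ^ i)⁻¹ * (aE γ ^ i * rE γ j * (aE γ ^ i)⁻¹) =
      aE γ ^ i * (rE γ j * rE γ j) * (aE γ ^ i)⁻¹ := by group
  rw [this, h1]
  group

include hX hI hVA hVB hS in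
/-- The conjugates are distinct. -/
theorem eE_inj (k k' : ℕ) (hk1 : k < 26163) (hk2 : k' < 26163)
    (he : eE γ (ij k / 2048) (ij k % 2048) = eE γ (ij k' / 2048) (ij k' % 2048)) : k = k' := by
  have hs : ∀ k < 26163, walk U (eW (ij k / 2048) (ij k % 2048)) 0 * 131072 +
      walk U (eW (ij k / 2048) (ij k % 2048)) 121 = sg k ∧ ij k % 2048 < 1377 ∧
      (k = 26162 ∨ sg k < sg (k + 1)) := by
    intro k hk
    have h1 := hS k hk
    simp only [hSF, hSG, Bool.and_eq_true, Bool.or_eq_true] at h1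
    obtain ⟨⟨h2, h3⟩, h4⟩ := h1
    refine ⟨Nat.eq_of_beq_eq_true h2, Nat.le_of_ble_eq_true h3, ?_⟩
    rcases h4 with h4 | h4
    · exact Or.inl (Nat.eq_of_beq_eq_true h4)
    · exact Or.inr (Nat.le_of_ble_eq_true h4)
  have hmono : ∀ k k', k < k' → k' < 26163 → sg k < sg k' := by
    intro k k' hkk
    induction k', hkk using Nat.le_induction with
    | base =>
      intro h1
      rcases (hs k (by omega)).2.2 with h2 | h2
      · omega
      · exact h2
    | succ m hm ih =>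
      intro h1
      refine lt_trans (ih (by omega)) ?_
      rcases (hs m (by omega)).2.2 with h2 | h2
      · omega
      · exact h2
  have hpt : ∀ k, ∀ q, q < 69768 → chM (eE γ (ij k / 2048) (ij k % 2048)) *ᵥ toV S.R.φ 9 (pt q) =
      toV S.R.φ 9 (pt (walk U (eW (ij k / 2048) (ij k % 2048)) q)) ∧
      walk U (eW (ij k / 2048) (ij k % 2048)) q < 69768 := by
    intro k q hq
    obtain ⟨h1, h2⟩ := word_U hX hI hVA hVB _ (eW_lt (ij k / 2048) (ij k % 2048)) q hq
    rw [wval_eW hI] at h2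
    exact ⟨h2, h1⟩
  have hq : ∀ q, q < 69768 → walk U (eW (ij k / 2048) (ij k % 2048)) q =
      walk U (eW (ij k' / 2048) (ij k' % 2048)) q := by
    intro q hq
    obtain ⟨h1, h2⟩ := hpt k q hq
    obtain ⟨h3, h4⟩ := hpt k' q hq
    rw [he, h3] at h1
    exact (hP_inj hX hI _ h4 _ h2 h1).symm
  have h5 : sg k = sg k' := by
    rw [← (hs k hk1).1, ← (hs k' hk2).1, hq 0 (by norm_num), hq 121 (by norm_num)]
  rcases lt_trichotomy k k' with h | h | h
  · exact absurd h5 (hmono k k' h hk2).ne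
  · exact h
  · exact absurd h5.symm (hmono k' k h hk1).ne

include hX hI hVA hVB hS in
/-- The centraliser in the simple group is small. -/
theorem cent_le [Finite ↥(threeJ3 F ω)] (htt : tE γ * tE γ = 1)
    (hcc : Nat.card ↥(Subgroup.center ↥(threeJ3 F ω)) = 3)
    (hcardJ : Nat.card (J3 F ω) = 50232960) :
    Nat.card ↥(Subgroup.centralizer ({piJ (tE γ)} : Set (J3 F ω))) ≤ 1920 := by
  classical
  set t := piJ (tE γ) with ht
  set C := Subgroup.centralizer ({t} : Set (J3 F ω)) with hC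
  have hsplit := Subgroup.card_eq_card_quotient_mul_card_subgroup C
  let r : ℕ → ↥(threeJ3 F ω) := fun k => aE γ ^ (ij k / 2048) * wval γ (repW (ij k % 2048))
  have hre : ∀ k, r k * tE γ * (r k)⁻¹ = eE γ (ij k / 2048) (ij k % 2048) := by
    intro k
    simp only [r, eE, rE]
    group
  let φ : Fin 26163 → J3 F ω ⧸ C := fun k => ((piJ (r k.1) : J3 F ω) : J3 F ω ⧸ C)
  have hφ : Function.Injective φ := by
    intro k k' e
    have h1 : (piJ (r k.1))⁻¹ * piJ (r k'.1) ∈ C := QuotientGroup.eq.mp e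
    have h2 : t * ((piJ (r k.1))⁻¹ * piJ (r k'.1)) = ((piJ (r k.1))⁻¹ * piJ (r k'.1)) * t :=
      (Subgroup.mem_centralizer_iff.mp h1) t rfl
    have h3 : piJ (eE γ (ij k.1 / 2048) (ij k.1 % 2048)) = piJ (eE γ (ij k'.1 / 2048) (ij k'.1 % 2048)) := by
      have e1 : ∀ a : ↥(threeJ3 F ω), piJ (a * tE γ * a⁻¹) = piJ a * t * (piJ a)⁻¹ := fun a => by
        rw [map_mul, map_mul, map_inv]
      rw [← hre, ← hre, e1, e1]
      have h4 : piJ (r k.1) * t * (piJ (r k.1))⁻¹ = piJ (r k.1) * (t * ((piJ (r k.1))⁻¹ * piJ (r k'.1))) * (piJ (r k'.1))⁻¹ := by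
        group
      rw [h4, h2]
      group
    set x := eE γ (ij k.1 / 2048) (ij k.1 % 2048) with hx
    set y := eE γ (ij k'.1 / 2048) (ij k'.1 % 2048) with hy
    have hz : x * y⁻¹ ∈ Subgroup.center ↥(threeJ3 F ω) := by
      apply (QuotientGroup.eq_one_iff _).mp
      show piJ (x * y⁻¹) = 1
      rw [map_mul, map_inv, h3, mul_inv_cancel]
    have hxx : x * x = 1 := eE_sq htt _ _
    have hyy : y * y = 1 := eE_sq htt _ _
    set z := x * y⁻¹ with hzd
    have hxz : x = z * y := by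
      rw [hzd]
      group
    have hz2 : z * z = 1 := by
      have h4 : z * y = y * z := (Subgroup.mem_center_iff.mp hz y).symm
      have h5 : x * x = z * z * (y * y) := by
        rw [hxz]
        calc z * y * (z * y) = z * (y * z) * y := by group
          _ = z * (z * y) * y := by rw [h4]
          _ = z * z * (y * y) := by group
      rw [hxx, hyy, mul_one] at h5
      exact h5.symm
    have hz3 : z ^ 3 = 1 := by
      have h40 := pow_card_eq_one' (x := (⟨z, hz⟩ : ↥(Subgroup.center ↥(threeJ3 F ω))))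
      rw [hcc] at h40
      exact congrArg Subtype.val h40
    have hz1 : z = 1 := by
      have h5 : z ^ 3 = z ^ 2 * z := pow_succ z 2
      rw [sq, hz2, one_mul] at h5
      rw [← h5, hz3]
    have hxy : x = y := by
      rw [hxz, hz1, one_mul]
    exact Fin.ext (eE_inj hX hI hVA hVB hS _ _ k.2 k'.2 hxy)
  have h4 := Nat.card_le_card_of_injective φ hφ
  rw [Nat.card_eq_fintype_card, Fintype.card_fin] at h4
  by_contra hlt
  push Not at hlt
  have h6 : 1921 ≤ Nat.card ↥C := hlt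
  have h5 := Nat.mul_le_mul h4 h6
  rw [← hsplit, hcardJ] at h5
  norm_num at h5

include hX hI in
/-- Lifting involutions. -/
theorem lift_invol [Finite ↥(threeJ3 F ω)] (hcardH : Nat.card ↥(threeJ3 F ω) = 150698880)
    (hcc : Nat.card ↥(Subgroup.center ↥(threeJ3 F ω)) = 3)
    (u : J3 F ω) (hu2 : u ^ 2 = 1) (hu1 : u ≠ 1) :
    ∃ h : ↥(threeJ3 F ω), u = piJ h * piJ (tE γ) * (piJ h)⁻¹ := by
  obtain ⟨u0, hu0⟩ := QuotientGroup.mk'_surjective (Subgroup.center ↥(threeJ3 F ω)) u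
  have hu0' : piJ u0 = u := hu0
  have hz : u0 ^ 2 ∈ Subgroup.center ↥(threeJ3 F ω) := by
    apply (QuotientGroup.eq_one_iff _).mp
    show piJ (u0 ^ 2) = 1
    rw [map_pow, hu0', hu2]
  have h3 : (u0 ^ 3) ^ 2 = 1 := by
    have h4 : (⟨u0 ^ 2, hz⟩ : ↥(Subgroup.center ↥(threeJ3 F ω))) ^ 3 = 1 := by
      have h40 := pow_card_eq_one' (x := (⟨u0 ^ 2, hz⟩ : ↥(Subgroup.center ↥(threeJ3 F ω))))
      rwa [hcc] at h40
    have h5 := congrArg Subtype.val h4
    have h6 : (u0 ^ 2) ^ 3 = 1 := h5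
    rw [← pow_mul] at h6 ⊢
    exact h6
  have hpi3 : piJ (u0 ^ 3) = u := by
    rw [map_pow, hu0', pow_succ, hu2, one_mul]
  have h31 : u0 ^ 3 ≠ 1 := by
    intro h
    rw [h, map_one] at hpi3
    exact hu1 hpi3.symm
  obtain ⟨h, hh⟩ := invol_conj (γ := γ) hX hI hcardH _ h3 h31
  refine ⟨h, ?_⟩
  rw [← hpi3, hh, map_mul, map_mul, map_inv]

end main

/-- The centraliser of an involution of the third Janko group. -/
theorem cent_result {F : Type*} [Field F] [Fintype F] (hF : Fintype.card F = 4) (ω : F) (hω : ω ^ 2 + ω + 1 = 0)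
    (hVA : ∀ i < 69768, U 4 i = walk V wa i)
    (hVB : ∀ i < 69768, U 5 i < 69768 ∧ U 4 (U 5 i) = i)
    (hS : ∀ k < 26163, hSF k = true) :
    (∀ x y : Cfsg.Spor.J3 F ω, orderOf x = 2 → orderOf y = 2 → IsConj x y) ∧ ∃ t : Cfsg.Spor.J3 F ω, orderOf t = 2 ∧
      ∃ (Q : Subgroup ↥(Subgroup.centralizer ({t} : Set (Cfsg.Spor.J3 F ω)))) (_ : Q.Normal), Cfsg.IsExtraspecial 2 Q ∧
        Nat.card Q = 32 ∧ (∀ E : Subgroup Q, Cfsg.IsElementaryAbelian 2 E → Nat.card E ≤ 2 ^ 2) ∧
        (∃ H : Subgroup ↥(Subgroup.centralizer ({t} : Set (Cfsg.Spor.J3 F ω))), Q.IsComplement' H) ∧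
        Nonempty (↥(Subgroup.centralizer ({t} : Set (Cfsg.Spor.J3 F ω))) ⧸ Q ≃* ↥(alternatingGroup (Fin 5))) := by
  classical
  obtain ⟨S⟩ := exists_R4 hF hω
  obtain ⟨γ, hX, hI⟩ := exists_letters S
  have hclo := hclosure hX hI
  have hcc := card_center hX hI hω
  set π : ↥(threeJ3 F ω) →* Cfsg.Spor.J3 F ω := piJ with hπ
  set g : ℕ → Cfsg.Spor.J3 F ω := fun a => π (γ a) with hg
  have hgi : ∀ a < 2, g (a + 2) = (g a)⁻¹ := by
    intro a ha
    simp only [hg, hI a ha, map_inv]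
  have hgen : Subgroup.closure (g '' {a | a < 2 * 2}) = ⊤ := by
    have h1 : g '' {a | a < 2 * 2} = π '' (γ '' {a | a < 2 * 2}) := by
      rw [Set.image_image]
    rw [h1, ← MonoidHom.map_closure, hclo, ← MonoidHom.range_eq_map, MonoidHom.range_eq_top]
    exact QuotientGroup.mk'_surjective _
  have hwv : ∀ w : List ℕ, wval g w = π (wval γ w) := by
    intro w
    rw [map_wval]
  have heq : ∀ w : List ℕ, (∀ a ∈ w, a < 4) → chk w = true → π (wval γ w) = 1 := by
    intro w hw h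
    exact (QuotientGroup.eq_one_iff _).mpr (central_of_chk hX hI w hw h)
  have h2c := Subgroup.card_eq_card_quotient_mul_card_subgroup (Subgroup.center ↥(threeJ3 F ω))
  have hcardJ : Nat.card (Cfsg.Spor.J3 F ω) = 50232960 := by
    apply le_antisymm (card_le g hgi hgen (fun w hw h => by rw [hwv]; exact heq w hw h))
    have h1 := card_ge hX hI
    rw [hcc] at h2c
    have h3 : Nat.card (Cfsg.Spor.J3 F ω) = Nat.card (↥(threeJ3 F ω) ⧸ Subgroup.center ↥(threeJ3 F ω)) := rfl
    omega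
  have hcardH : Nat.card ↥(threeJ3 F ω) = 150698880 := by
    rw [hcc] at h2c
    have h3 : Nat.card (Cfsg.Spor.J3 F ω) = Nat.card (↥(threeJ3 F ω) ⧸ Subgroup.center ↥(threeJ3 F ω)) := rfl
    omega
  have htt : tE γ * tE γ = 1 := by
    have hl : ∀ a ∈ wt ++ wt, a < 4 := by
      intro a ha
      simp only [List.mem_append, or_self] at ha
      exact wt4 a ha
    have h1 := heqE hX hI _ hl c_tt
    rw [wval_append] at h1
    exact h1
  set t : Cfsg.Spor.J3 F ω := piJ (tE γ) with ht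
  have ht2 : t ^ 2 = 1 := by
    rw [sq, ht, ← map_mul, htt, map_one]
  have ht1 : t ≠ 1 := by
    intro h
    have h1 : piJ (wval (gE γ) wt) = 1 := by
      rw [wval_gE wt wt4]
      exact h
    have h2 := walk_small hX hI hVA hVB wt (fun a ha => by have := wt4 a ha; omega) h1
    have h3 : walk U wt 0 = walk V wt 0 := by decide +kernel
    have h4 := c_a.2.2.2.2
    omega
  have hot : orderOf t = 2 := orderOf_eq_prime ht2 ht1
  have hconj : ∀ x : Cfsg.Spor.J3 F ω, orderOf x = 2 → IsConj x t := by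
    intro x hx
    have hx2 : x ^ 2 = 1 := by
      rw [← hx]
      exact pow_orderOf_eq_one x
    have hx1 : x ≠ 1 := by
      intro h
      rw [h, orderOf_one] at hx
      omega
    obtain ⟨h, hh⟩ := lift_invol hX hI hcardH hcc x hx2 hx1
    rw [hh]
    exact (isConj_iff.mpr ⟨piJ h, rfl⟩).symm
  refine ⟨fun x y hx hy => (hconj x hx).trans (hconj y hy).symm, t, hot, ?_⟩
  -- the normal subgroup
  obtain ⟨eQ⟩ := list_concrete (T := TE sM) hX hI hVA hVB 32 5 0 (by norm_num) (by norm_num) (by norm_num)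
    gQL LQL tauQL prQL gnQL sgQL bQ (fun a => bQ (2 ^ a)) c_Qtau c_Q0 c_Qsig c_Qsig2 c_Qtree c_Qw c_bQ0 c_bQ c_bQk
    (by rw [card_TE]; norm_num)
  obtain ⟨eH⟩ := list_concrete (T := ↥(alternatingGroup (Fin 5))) hX hI hVA hVB 60 2 0 (by norm_num) (by norm_num)
    (by norm_num) gAL LAL tauAL prAL gnAL sgAL bA rhoA c_Atau c_A0 c_Asig c_Asig2 c_Atree c_Aw c_bA0 c_bA c_bAk
    (by rw [Nat.card_eq_fintype_card]; decide)
  have hQc := comm_of_chk hX hI 5 gQL (fun a ha => (c_Qtau a ha 0 (by norm_num)).2.1) c_cQ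
  have hHc := comm_of_chk hX hI 2 gAL (fun a ha => (c_Atau a ha 0 (by norm_num)).2.1) c_cA
  exact centralizer_struct t _ _ eQ eH hQc hHc (norm_of_chk hX hI) (cent_le hX hI hVA hVB hS htt hcc hcardJ)

/-- The centraliser of an involution of the third Janko group. -/
theorem result_cent {F : Type*} [Field F] [Fintype F] (hF : Fintype.card F = 4) (ω : F) (hω : ω ^ 2 + ω + 1 = 0) :
    (∀ x y : Cfsg.Spor.J3 F ω, orderOf x = 2 → orderOf y = 2 → IsConj x y) ∧ ∃ t : Cfsg.Spor.J3 F ω, orderOf t = 2 ∧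
      ∃ (Q : Subgroup ↥(Subgroup.centralizer ({t} : Set (Cfsg.Spor.J3 F ω)))) (_ : Q.Normal), Cfsg.IsExtraspecial 2 Q ∧
        Nat.card Q = 32 ∧ (∀ E : Subgroup Q, Cfsg.IsElementaryAbelian 2 E → Nat.card E ≤ 2 ^ 2) ∧
        (∃ H : Subgroup ↥(Subgroup.centralizer ({t} : Set (Cfsg.Spor.J3 F ω))), Q.IsComplement' H) ∧
        Nonempty (↥(Subgroup.centralizer ({t} : Set (Cfsg.Spor.J3 F ω))) ⧸ Q ≃* ↥(alternatingGroup (Fin 5))) := by
  refine cent_result hF ω hω (fun i hi => ?_) (fun i hi => ?_) hSF_all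
  · exact Nat.eq_of_beq_eq_true (hVA i hi)
  · have h := hVB i hi
    simp only [hVBf, Bool.and_eq_true] at h
    exact ⟨Nat.le_of_ble_eq_true h.1, Nat.eq_of_beq_eq_true h.2⟩

end Cfsg.Agent.Lib.KnownSimple.J3Lab.Ot
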